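import Mathlib

/-!
Elements of order three in `SL(3,4)` and `PSL(3,4)`.
-/

set_option autoImplicit false

namespace Cfsg.Agent.Lib.Misc

open Matrix

section F4
variable {F : Type*} [Field F] [Fintype F]

theorem f4_cube (hF : Fintype.card F = 4) {x : F} (hx : x ≠ 0) : x ^ 3 = 1 := by
  have := FiniteField.pow_card_sub_one_eq_one x hx
  rwa [hF] at this

theorem f4_two (hF : Fintype.card F = 4) : (2 : F) = 0 := by
  have h := FiniteField.cast_card_eq_zero F
  rw [hF] at h
  have h2 : (2 : F) ^ 2 = 0 := by rw [← h]; norm_num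
  exact pow_eq_zero_iff (two_ne_zero) |>.1 h2

theorem f4_omega (hF : Fintype.card F = 4) : ∃ ω : F, ω ^ 2 + ω + 1 = 0 := by
  classical
  have h : ∃ ω : F, ω ≠ 0 ∧ ω ≠ 1 := by
    by_contra hne
    push Not at hne
    have : (Finset.univ : Finset F) ⊆ {0, 1} := by
      intro x _
      by_cases hx : x = 0
      · simp [hx]
      · simp [hne x hx]
    have h1 := Finset.card_le_card this
    have h2 : ({0, 1} : Finset F).card ≤ 2 := Finset.card_le_two
    rw [Finset.card_univ, hF] at h1
    omega
  obtain ⟨ω, h0, h1⟩ := h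
  refine ⟨ω, ?_⟩
  have h3 := f4_cube hF h0
  have : (ω - 1) * (ω ^ 2 + ω + 1) = 0 := by linear_combination h3
  exact (mul_eq_zero.1 this).resolve_left (sub_ne_zero.2 h1)

end F4

section CH
variable {R : Type*} [CommRing R]

theorem ch3 (y : Matrix (Fin 3) (Fin 3) R) :
    y * y * y - y.trace • (y * y) + y.adjugate.trace • y - y.det • (1 : Matrix _ _ R) = 0 := by
  ext i j
  fin_cases i <;> fin_cases j <;>
    simp [Matrix.mul_apply, Fin.sum_univ_three, det_fin_three, adjugate_fin_three, trace_fin_three,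
      Matrix.one_apply] <;> ring

theorem det3 (y : Matrix (Fin 3) (Fin 3) R) (l : R) :
    (y - l • (1 : Matrix _ _ R)).det =
      -(l ^ 3 - y.trace * l ^ 2 + y.adjugate.trace * l - y.det) := by
  simp [det_fin_three, adjugate_fin_three, trace_fin_three, Matrix.one_apply]
  ring

theorem trace_sq3 (h2 : (2 : R) = 0) (y : Matrix (Fin 3) (Fin 3) R) :
    (y * y).trace = y.trace ^ 2 := by
  simp only [trace_fin_three, Matrix.mul_apply, Fin.sum_univ_three]
  linear_combination (y 0 1 * y 1 0 + y 0 2 * y 2 0 + y 1 2 * y 2 1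
    - y 0 0 * y 1 1 - y 0 0 * y 2 2 - y 1 1 * y 2 2) * h2

end CH

variable {F : Type*} [Field F] [Fintype F]

/-- the diagonal matrix with entries `1, ω, ω²` -/
def dg {F : Type*} [Field F] {ω : F} (hω : ω ^ 2 + ω + 1 = 0) : Matrix.SpecialLinearGroup (Fin 3) F :=
  ⟨diagonal ![1, ω, ω ^ 2], by
    simp [det_diagonal, Fin.prod_univ_three]
    linear_combination (ω - 1) * hω⟩

theorem exists_conj_dg (hF : Fintype.card F = 4) {ω : F} (hω : ω ^ 2 + ω + 1 = 0)
    (y : Matrix.SpecialLinearGroup (Fin 3) F) (hy : y ∉ Subgroup.center _)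
    (hy3 : y ^ 3 ∈ Subgroup.center (Matrix.SpecialLinearGroup (Fin 3) F)) :
    ∃ P : Matrix.SpecialLinearGroup (Fin 3) F, y * P = P * dg hω := by
  classical
  have h2 := f4_two hF
  have hω0 : ω ≠ 0 := by rintro rfl; simp at hω
  have hω1 : ω ≠ 1 := by
    rintro rfl
    apply one_ne_zero (α := F)
    linear_combination hω - h2
  obtain ⟨c, hc3, hc⟩ := Matrix.SpecialLinearGroup.mem_center_iff.1 hy3
  simp only [Fintype.card_fin] at hc3
  have hc0 : c ≠ 0 := by rintro rfl; simp at hc3
  set Y : Matrix (Fin 3) (Fin 3) F := y.1 with hY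
  have hdet : Y.det = 1 := y.2
  have hYYY : Y * Y * Y = c • (1 : Matrix _ _ F) := by
    have : ((y ^ 3 : Matrix.SpecialLinearGroup (Fin 3) F) : Matrix _ _ F) = Y * Y * Y := by
      rw [Matrix.SpecialLinearGroup.coe_pow, pow_three, mul_assoc]
    rw [← this, ← hc, scalar_apply, ← smul_one_eq_diagonal]
  have hns : ∀ a : F, Y ≠ a • (1 : Matrix _ _ F) := by
    intro a ha
    apply hy
    refine Subgroup.mem_center_iff.2 fun g => Subtype.ext ?_
    change g.1 * Y = Y * g.1
    rw [ha]; simp
  have hadj : c • Y.adjugate = Y * Y := by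
    have h1 : Y * Y.adjugate = 1 := by rw [mul_adjugate, hdet, one_smul]
    calc c • Y.adjugate = (Y * Y * Y) * Y.adjugate := by rw [hYYY]; simp
      _ = Y * Y := by rw [mul_assoc (Y * Y), h1, mul_one]
  have hs : c * Y.adjugate.trace = Y.trace ^ 2 := by
    rw [← trace_sq3 h2, ← hadj, trace_smul, smul_eq_mul]
  have hch := ch3 Y
  rw [hYYY, hdet] at hch
  have ht : Y.trace = 0 := by
    by_contra ht
    set t := Y.trace
    set s := Y.adjugate.trace
    have hq : Y * Y = (s / t) • Y + ((c - 1) / t) • (1 : Matrix _ _ F) := by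
      have : t • (Y * Y) = s • Y + (c - 1) • (1 : Matrix _ _ F) := by
        rw [sub_smul]
        rw [← sub_eq_zero, ← neg_eq_zero, ← hch]
        abel
      calc Y * Y = t⁻¹ • t • (Y * Y) := by rw [smul_smul, inv_mul_cancel₀ ht, one_smul]
        _ = _ := by
          rw [this, smul_add, smul_smul, smul_smul, div_eq_inv_mul, div_eq_inv_mul]
    set a := s / t with ha
    set b := (c - 1) / t with hb
    have h3 : (a ^ 2 + b) • Y = (c - a * b) • (1 : Matrix _ _ F) := by
      have : Y * Y * Y = (a ^ 2 + b) • Y + (a * b) • (1 : Matrix _ _ F) := by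
        conv_lhs => rw [hq, add_mul, smul_mul_assoc, hq]
        simp only [smul_add, smul_smul, smul_mul_assoc, one_mul, add_smul, pow_two]
        abel
      rw [hYYY] at this
      rw [sub_smul, this]; abel
    by_cases hab : a ^ 2 + b = 0
    · rw [hab, zero_smul] at h3
      have h4 : c - a * b = 0 := by
        have := congrFun (congrFun h3 0) 0
        simpa using this.symm
      have ha3 : a ^ 3 = c := by linear_combination a * hab + h4 - c * h2
      have ha0 : a ≠ 0 := by rintro h; rw [h] at ha3; exact hc0 (by simpa using ha3.symm)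
      have hc1 : c = 1 := by rw [← ha3, f4_cube hF ha0]
      have hb0 : b = 0 := by rw [hb, hc1]; simp
      rw [hb0, add_zero] at hab
      exact ha0 (pow_eq_zero_iff two_ne_zero |>.1 hab)
    · apply hns ((a ^ 2 + b)⁻¹ * (c - a * b))
      rw [← smul_smul, ← h3, smul_smul, inv_mul_cancel₀ hab, one_smul]
  have hs0 : Y.adjugate.trace = 0 := by
    rw [ht] at hs
    simpa [hc0] using hs
  have hev : ∀ l : F, l ^ 3 = 1 → ∃ v : Fin 3 → F, v ≠ 0 ∧ Y *ᵥ v = l • v := by
    intro l hl
    have h0 : (Y - l • (1 : Matrix _ _ F)).det = 0 := by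
      rw [det3, ht, hs0, hdet, hl]; simp
    obtain ⟨v, hv, hv2⟩ := exists_mulVec_eq_zero_iff.2 h0
    refine ⟨v, hv, ?_⟩
    rw [sub_mulVec, smul_mulVec, one_mulVec, sub_eq_zero] at hv2
    exact hv2
  let d : Fin 3 → F := ![1, ω, ω ^ 2]
  have hω3 : ω ^ 3 = 1 := f4_cube hF hω0
  have hd3 : ∀ i, d i ^ 3 = 1 := by
    intro i
    fin_cases i
    · simp [d]
    · simpa [d] using hω3
    · simp only [d]
      show (ω ^ 2) ^ 3 = 1
      rw [← pow_mul, mul_comm, pow_mul, hω3, one_pow]
  have hdinj : Function.Injective d := by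
    have h01 : (1 : F) ≠ ω := hω1.symm
    have h02 : (1 : F) ≠ ω ^ 2 := by
      intro h
      apply hω0
      linear_combination hω + h - h2
    have h12 : ω ≠ ω ^ 2 := by
      intro h
      apply one_ne_zero (α := F)
      linear_combination hω + h - ω * h2
    intro i j hij
    fin_cases i <;> fin_cases j <;> simp [d] at hij ⊢ <;> first | exact h01 hij | exact h02 hij | exact h12 hij | exact h01 hij.symm | exact h02 hij.symm | exact h12 hij.symm | skip
    all_goals simp_all
  choose v hv0 hv using fun i => hev (d i) (hd3 i)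
  have hli : LinearIndependent F v := by
    refine Module.End.eigenvectors_linearIndependent' (Matrix.toLin' Y) d hdinj v fun i => ?_
    exact ⟨Module.End.mem_eigenspace_iff.2 (by simpa using hv i), hv0 i⟩
  let P0 : Matrix (Fin 3) (Fin 3) F := (Matrix.of v)ᵀ
  have hP0 : P0.det ≠ 0 := by
    have : IsUnit (Matrix.of v) := Matrix.linearIndependent_rows_iff_isUnit.1 hli
    rw [det_transpose]
    exact ((isUnit_iff_isUnit_det _).1 this).ne_zero
  have hYP : Y * P0 = P0 * diagonal d := by
    ext i j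
    have := congrFun (hv j) i
    simp only [mulVec, dotProduct, Pi.smul_apply, smul_eq_mul] at this
    rw [mul_diagonal, Matrix.mul_apply]
    simp only [P0, transpose_apply, of_apply]
    rw [this, mul_comm]
  let E : Matrix (Fin 3) (Fin 3) F := diagonal ![P0.det⁻¹, 1, 1]
  refine ⟨⟨P0 * E, ?_⟩, Subtype.ext ?_⟩
  · rw [det_mul]
    simp [E, det_diagonal, Fin.prod_univ_three, hP0]
  · change Y * (P0 * E) = P0 * E * diagonal d
    rw [← mul_assoc, hYP, mul_assoc, mul_assoc, diagonal_mul_diagonal, diagonal_mul_diagonal]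
    congr 2
    ext i
    ring

theorem card_center_sl34 (hF : Fintype.card F = 4) :
    Nat.card (Subgroup.center (Matrix.SpecialLinearGroup (Fin 3) F)) = 3 := by
  rw [Nat.card_congr (Matrix.SpecialLinearGroup.center_equiv_rootsOfUnity' (0 : Fin 3)).toEquiv]
  have : rootsOfUnity (Fintype.card (Fin 3)) F = ⊤ := by
    refine eq_top_iff.2 fun u _ => ?_
    rw [mem_rootsOfUnity]
    ext
    simpa using f4_cube hF u.ne_zero
  classical
  rw [this, Subgroup.card_top, Nat.card_eq_fintype_card, Fintype.card_units, hF]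

end Cfsg.Agent.Lib.Misc
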