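/-
The dihedral lemma and coprime generation for groups of automorphisms.
-/
import Cfsg.Agent.Lib.Misc.DihLemma
import Cfsg.Agent.Lib.Misc.CycSylow
import Cfsg.Agent.Lib.Core.Hol

set_option autoImplicit false
set_option linter.unusedSectionVars false
set_option linter.style.haveILetI false

namespace Cfsg.Agent.Lib.DihLemma

open Subgroup Cfsg.Agent.Lib.Core
open scoped commutatorElement

variable {P : Type*} [Group P] [Finite P]

theorem eq_or_eq_inv {x : P} (hx : (orderOf x).Prime) {T : MulAut P} (hT : T ^ 2 = 1)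
    (h : T x ∈ zpowers x) : T x = x ∨ T x = x⁻¹ := by
  obtain ⟨k, hk⟩ := h
  have hk' : T x = x ^ k := hk.symm
  have h1 : T (T x) = x := congrArg (fun f : MulAut P => f x) hT
  rw [hk', map_zpow, hk', ← zpow_mul] at h1
  have h2 : x ^ ((k - 1) * (k + 1)) = 1 := by
    rw [show (k - 1) * (k + 1) = k * k - 1 by ring, zpow_sub, h1, zpow_one, mul_inv_cancel]
  rw [← orderOf_dvd_iff_zpow_eq_one] at h2
  rcases (Nat.prime_iff_prime_int.mp hx).dvd_or_dvd h2 with h | h <;>
    rw [orderOf_dvd_iff_zpow_eq_one] at h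
  · left; rw [hk', ← mul_inv_eq_one, ← zpow_sub_one, h]
  · right; rw [hk', eq_inv_iff_mul_eq_one, ← zpow_add_one, h]

theorem exists_elems (hP : Group.IsNilpotent P) (hodd : ¬ 2 ∣ Nat.card P) {I : Subgroup (MulAut P)}
    (hI : IsElementaryAbelian 2 I) {n : ℕ} (hn : Nat.card I = 2 ^ n) :
    ∃ x : Fin n → P, (∀ i, (orderOf (x i)).Prime) ∧ (∀ i j, x i * x j = x j * x i) ∧
      (∀ T ∈ I, ∀ i, T (x i) = x i ∨ T (x i) = (x i)⁻¹) ∧
      ∀ T ∈ I, (∀ i, T (x i) = x i) → T = 1 := by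
  obtain ⟨G, _, _, ι, σ, h⟩ := exists_hol I.subtype
  have hI' : IsElementaryAbelian 2 σ.range := by
    haveI := hI.1
    refine ⟨inferInstance, ?_⟩
    rintro _ ⟨a, rfl⟩
    rw [← map_pow, show a ^ 2 = 1 from Subtype.ext (hI.2 a a.2), map_one]
  obtain ⟨f, h1, h2, h3, h4, -, -, h7⟩ := exists_family (F := ι.range) (I := σ.range)
    (Group.nilpotent_of_mulEquiv (ι.ofInjective h.ι_inj)) (by rwa [h.card_range_ι]) hI'
    (by rintro _ ⟨a, rfl⟩; exact h.mem_normalizer_range a)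
    (by
      rw [eq_bot_iff]
      rintro _ ⟨⟨a, rfl⟩, ha⟩
      rw [show a = 1 from Subtype.ext (h.mem_centralizer_range_iff.mp ha), map_one]; exact one_mem _)
    (h.card_range_σ.trans hn) n le_rfl
  have h8 : σ.range ⊓ centralizer ((⨆ i, f i : Subgroup G) : Set G) = ⊥ :=
    card_eq_one.mp (Nat.eq_of_mul_eq_mul_right (by positivity) (h7.trans (one_mul _).symm))
  have : ∀ i, ∃ x : P, zpowers (ι x) = f i := fun i => by
    haveI := Fact.mk (h1 i)
    obtain ⟨g, hg⟩ := (isCyclic_of_prime_card (α := f i) rfl).exists_generator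
    obtain ⟨x, hx⟩ := h2 i g.2
    refine ⟨x, le_antisymm (zpowers_le.mpr (hx ▸ g.2)) fun y hy => ?_⟩
    obtain ⟨k, hk⟩ := hg ⟨y, hy⟩
    exact ⟨k, by rw [hx]; exact congrArg Subtype.val hk⟩
  choose x hx using this
  have ho : ∀ i, (orderOf (x i)).Prime := fun i => by
    rw [← orderOf_injective ι h.ι_inj, ← Nat.card_zpowers, hx]; exact h1 i
  have hm : ∀ i, ι (x i) ∈ f i := fun i => hx i ▸ mem_zpowers _
  refine ⟨x, ho, fun i j => ?_, fun T hT i => eq_or_eq_inv (ho i) (hI.2 T hT) ?_, fun T hT hT' => ?_⟩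
  · by_cases hij : i = j
    · rw [hij]
    · exact h.ι_inj (by rw [map_mul, map_mul]; exact h4 i j hij _ (hm i) _ (hm j))
  · have := conj_mem_of_mem_normalizer (h3 i ⟨⟨T, hT⟩, rfl⟩) (hm i)
    rw [h.conj, ← hx, ← MonoidHom.map_zpowers] at this
    exact (mem_map_iff_mem h.ι_inj).mp this
  · have : σ ⟨T, hT⟩ ∈ σ.range ⊓ centralizer ((⨆ i, f i : Subgroup G) : Set G) := by
      refine ⟨⟨_, rfl⟩, le_centralizer_iff.mp (iSup_le fun i => ?_) (mem_zpowers _)⟩
      rw [← hx, zpowers_le, centralizer_zpowers, mem_centralizer_singleton_iff]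
      exact (h.commute_iff.mpr (hT' i)).symm
    rw [h8, mem_bot, map_eq_one_iff _ h.σ_inj] at this
    exact congrArg Subtype.val this

theorem eq_top_of_fixed {V : Subgroup (MulAut P)} (hV : IsMulCommutative V) (hnc : ¬ IsCyclic V)
    (hcop : (Nat.card V).Coprime (Nat.card P)) {W : Subgroup P}
    (hW : ∀ T ∈ V, T ≠ 1 → ∀ x, T x = x → x ∈ W) : W = ⊤ := by
  obtain ⟨G, _, _, ι, σ, h⟩ := exists_hol V.subtype
  have := le_of_centralizers (A := σ.range) (H := ι.range) (W := W.map ι) inferInstance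
    (fun hc => hnc (isCyclic_of_surjective _ (σ.ofInjective h.σ_inj).symm.surjective))
    (by rintro _ ⟨a, rfl⟩; exact h.mem_normalizer_range a)
    (by rwa [h.card_range_ι, h.card_range_σ]) (by
      rintro _ ⟨a, rfl⟩ ha _ ⟨⟨x, rfl⟩, hx⟩
      exact mem_map_of_mem ι (hW a a.2 (fun e => ha (by rw [show a = 1 from Subtype.ext e, map_one]))
        x (h.commute_iff.mp (mem_centralizer_singleton_iff.mp hx).symm)))
  exact eq_top_iff.mpr fun x _ => (mem_map_iff_mem h.ι_inj).mp (this ⟨x, rfl⟩)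

theorem eq_one_of_eq_inv (hodd : ¬ 2 ∣ Nat.card P) {x : P} (h : x = x⁻¹) : x = 1 := by
  by_contra h1
  rw [eq_inv_iff_mul_eq_one, ← sq] at h
  exact hodd (orderOf_eq_prime h h1 ▸ orderOf_dvd_natCard x)

/-- An involutory automorphism without fixed points on an invariant subgroup of odd order inverts. -/
theorem inverts_of_fpf (hodd : ¬ 2 ∣ Nat.card P) {S : MulAut P} (hS : S ^ 2 = 1) {D : Subgroup P}
    (hD : ∀ d ∈ D, S d ∈ D) (h : ∀ d ∈ D, S d = d → d = 1) {e : P} (he : e ∈ D) : S e = e⁻¹ := by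
  have h1 : S (S e) = e := congrArg (fun f : MulAut P => f e) hS
  set u := e⁻¹ * S e with hu
  have huD : u ∈ D := mul_mem (inv_mem he) (hD e he)
  have h2 : S u = u⁻¹ := by rw [hu, map_mul, map_inv, h1]; group
  obtain ⟨k, hk⟩ : ∃ k, Nat.card P + 1 = 2 * k := ⟨(Nat.card P + 1) / 2, by omega⟩
  have h3 : u ^ k * u ^ k = u := by
    rw [← pow_add, ← two_mul, ← hk, pow_succ, pow_card_eq_one', one_mul]
  have h4 := h (e * u ^ k) (mul_mem he (pow_mem huD k)) (by
    rw [map_mul, map_pow, h2, inv_pow, mul_inv_eq_iff_eq_mul, mul_assoc, h3, hu, mul_inv_cancel_left])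
  rw [mul_eq_one_iff_eq_inv] at h4
  rw [h4, map_inv, map_pow, h2, inv_pow]

end Cfsg.Agent.Lib.DihLemma
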