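/- Groups whose proper subgroups are all conjugate into one of two proper subgroups are solvable. -/
import Cfsg.Agent.Lib.Glaub.Alperin
import Cfsg.Agent.Lib.Two.NC8
import Mathlib.GroupTheory.GroupAction.SubMulAction.OfStabilizer

set_option autoImplicit false
set_option linter.unusedSectionVars false

namespace Cfsg.Agent.Lib.TwoCl

open Subgroup MulAction Cfsg.Agent.Lib.Core Cfsg.Agent.Lib.Glaub

universe u

theorem dvd_card_of_index {H X : Type*} [Group H] [MulAction H X] [Finite H] [Finite X] {m : ℕ}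
    (h : ∀ x : X, m ∣ (stabilizer H x).index) : m ∣ Nat.card X := by
  classical
  haveI : Fintype (Quotient (orbitRel H X)) := Fintype.ofFinite _
  rw [Nat.card_congr (selfEquivSigmaOrbitsQuotientStabilizer H X), Nat.card_sigma]
  exact Finset.dvd_sum fun ω _ => h _

variable {G : Type*} [Group G] [Finite G] {Ω : Type*} [MulAction G Ω] [IsPretransitive G Ω]
  {p : ℕ} [hp : Fact p.Prime] {P : Subgroup G} {a b : Ω}

/-- the normalizer of a maximal `p`-subgroup with two fixed points has no fixed point -/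
theorem not_fix (hP : IsPGroup p P) (hab : a ≠ b) (ha : P ≤ stabilizer G a) (hb : P ≤ stabilizer G b)
    (mx : ∀ Q : Subgroup G, IsPGroup p Q → P ≤ Q → ∀ c d : Ω, c ≠ d → Q ≤ stabilizer G c → Q ≤ stabilizer G d →
      Q ≤ P) (c : Ω) : ¬ 𝐍(P) ≤ stabilizer G c := by
  intro hc
  obtain ⟨d, hd, hcd⟩ : ∃ d, P ≤ stabilizer G d ∧ c ≠ d := by
    by_cases e : c = a
    exacts [⟨b, hb, e ▸ hab⟩, ⟨a, ha, e⟩]
  have hs : IsSyl p P (stabilizer G d) := isSyl_of_maximal hd hP fun Q hQ h1 h2 => by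
    by_contra n
    have h3 := lt_inf_normalizer_of_isPGroup hQ (lt_of_le_of_ne h1 (Ne.symm n))
    exact h3.not_ge (mx _ (hQ.to_le inf_le_left) h3.le c d hcd (inf_le_right.trans hc)
      (inf_le_left.trans h2))
  obtain ⟨g, rfl⟩ := exists_smul_eq G d c
  have h1 := hs.conj g
  rw [← stabilizer_smul_eq_stabilizer_map_conj] at h1
  have h2 := h1.of_card_le hP (le_normalizer.trans hc) (card_map_conj _ _).le
  obtain ⟨h, hh, e⟩ := h1.exists_conj h2
  rw [map_conj_map_conj] at e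
  have h3 : (h * g) • g • d = g • d := hc (map_conj_eq_iff.1 e)
  have h4 : h • g • d = g • d := hh
  rw [mul_smul, ← h4, smul_left_cancel_iff, h4] at h3
  exact hcd (smul_left_cancel g h3)

/-- every proper subgroup fixes a point or is conjugate into `N` -/
def Cov (Ω : Type*) [MulAction G Ω] (N : Subgroup G) : Prop :=
  ∀ K : Subgroup G, K ≠ ⊤ → (∃ c : Ω, K ≤ stabilizer G c) ∨ ∃ g, K ≤ cj(g, N)

variable {N : Subgroup G}

theorem Cov.card_dvd (h : Cov Ω N) (hO : ∀ Q : Subgroup G, IsPGroup p Q → 𝐍(Q) = ⊤ → Q = ⊥)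
    (hP : IsPGroup p P) (hab : a ≠ b) (ha : P ≤ stabilizer G a) (hb : P ≤ stabilizer G b) :
    Nat.card P ∣ Nat.card N := by
  obtain ⟨Q, ⟨hQ, PQ, c, d, hcd, hc, hd⟩, mx⟩ := exists_maximal_of_wellFoundedGT
    (fun Q : Subgroup G => IsPGroup p Q ∧ P ≤ Q ∧
      ∃ c d : Ω, c ≠ d ∧ Q ≤ stabilizer G c ∧ Q ≤ stabilizer G d) ⟨P, hP, le_rfl, a, b, hab, ha, hb⟩
  refine (card_dvd_of_le PQ).trans ?_
  by_cases e : 𝐍(Q) = ⊤
  · rw [hO Q hQ e, card_bot]; exact one_dvd _
  rcases h _ e with ⟨x, hx⟩ | ⟨g, hg⟩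
  · exact absurd hx (not_fix hQ hcd hc hd
      (fun R hR h1 c d hcd hc hd => mx ⟨hR, PQ.trans h1, c, d, hcd, hc, hd⟩ h1) x)
  · exact card_map_conj N g ▸ card_dvd_of_le (le_normalizer.trans hg)

theorem Cov.dvd_relIndex (h : Cov Ω N)
    (hO : ∀ p : ℕ, p.Prime → ∀ Q : Subgroup G, IsPGroup p Q → 𝐍(Q) = ⊤ → Q = ⊥) (hab : a ≠ b) :
    N.index ∣ (stabilizer G b).relIndex (stabilizer G a) := by
  refine (Nat.dvd_iff_prime_pow_dvd_dvd _ _).2 fun p k hp hk => ?_
  rcases Nat.eq_zero_or_pos k with rfl | k0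
  · exact one_dvd _
  haveI := Fact.mk hp
  have pN : p ∣ N.index := (dvd_pow_self p k0.ne').trans hk
  obtain ⟨S, hS⟩ := exists_isSyl p (⊤ : Subgroup G)
  have nd : ∀ K : Subgroup G, S ≤ K → ¬ p ∣ K.index := fun K hK =>
    relIndex_top_right K ▸ hS.not_dvd_relIndex hK
  have pa : ¬ p ∣ (stabilizer G a).index := by
    rcases h S (fun e => nd N (hO p hp S hS.isPGroup (top_unique (e.ge.trans le_normalizer)) ▸ bot_le)
      pN) with ⟨c, hc⟩ | ⟨g, hg⟩
    · have := nd _ hc
      rwa [index_stabilizer_of_transitive, ← index_stabilizer_of_transitive G a] at this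
    · refine absurd pN ?_
      have := nd _ hg
      rwa [index_map_of_bijective (MulAut.conj g).bijective] at this
  obtain ⟨P, hP⟩ := exists_isSyl p (stabilizer G b ⊓ stabilizer G a)
  obtain ⟨c, hc⟩ := h.card_dvd (hO p hp) hP.isPGroup hab (hP.le.trans inf_le_right)
    (hP.le.trans inf_le_left)
  have e1 := relIndex_mul_index hP.le
  have e2 := relIndex_mul_index (inf_le_right : stabilizer G b ⊓ stabilizer G a ≤ stabilizer G a)
  rw [inf_relIndex_right] at e2
  have e3 : P.index = c * N.index := Nat.eq_of_mul_eq_mul_left (Nat.card_pos (α := P)) (by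
    rw [card_mul_index, ← mul_assoc, ← hc, card_mul_index])
  have := hk.trans (Dvd.intro_left c e3.symm)
  rw [← e1, ← e2] at this
  exact (Nat.Coprime.pow_left k (hp.coprime_iff_not_dvd.2 pa)).dvd_of_dvd_mul_right
    ((Nat.Coprime.pow_left k (hp.coprime_iff_not_dvd.2 hP.not_dvd)).dvd_of_dvd_mul_left this)

theorem Cov.index_lt [Finite Ω] (h : Cov Ω N)
    (hO : ∀ p : ℕ, p.Prime → ∀ Q : Subgroup G, IsPGroup p Q → 𝐍(Q) = ⊤ → Q = ⊥) (hab : a ≠ b) :
    N.index < Nat.card Ω := by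
  have h1 : N.index ∣ Nat.card (SubMulAction.ofStabilizer G a) :=
    dvd_card_of_index (H := stabilizer G a) fun x => by
      have := h.dvd_relIndex hO (SubMulAction.neq_of_mem_ofStabilizer G a (x := x)).symm
      rwa [show stabilizer (stabilizer G a) x = (stabilizer G (x : Ω)).subgroupOf (stabilizer G a) from
        Subgroup.ext fun g => Subtype.ext_iff]
  haveI : Nonempty (SubMulAction.ofStabilizer G a) := ⟨⟨b, hab.symm⟩⟩
  have := Nat.le_of_dvd Nat.card_pos h1
  rw [← SubMulAction.nat_card_ofStabilizer_add_one_eq G a]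
  omega

/-- every proper subgroup is conjugate into `M` or `N` -/
def Two (M N : Subgroup G) : Prop := ∀ K : Subgroup G, K ≠ ⊤ → ∃ g, K ≤ cj(g, M) ∨ K ≤ cj(g, N)

variable {M : Subgroup G}

theorem Two.symm (h : Two M N) : Two N M := fun K hK => (h K hK).imp fun _ => Or.symm

theorem Two.index_lt (h : Two M N) (hM : M ≠ ⊤)
    (hO : ∀ p : ℕ, p.Prime → ∀ Q : Subgroup G, IsPGroup p Q → 𝐍(Q) = ⊤ → Q = ⊥) :
    N.index < M.index := by
  obtain ⟨g, -, hg⟩ := SetLike.exists_of_lt (lt_top_iff_ne_top.2 hM)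
  refine Cov.index_lt (Ω := G ⧸ M) (a := ((1 : G) : G ⧸ M)) (b := (g : G ⧸ M)) (fun K hK => ?_) hO
    fun e => hg (by simpa using QuotientGroup.eq.1 e)
  obtain ⟨g, e | e⟩ := h K hK
  · exact .inl ⟨g • ((1 : G) : G ⧸ M), by
      rwa [stabilizer_smul_eq_stabilizer_map_conj, stabilizer_quotient]⟩
  · exact .inr ⟨g, e⟩

theorem Two.map {G' : Type*} [Group G'] [Finite G'] {f : G →* G'} (hf : Function.Surjective f)
    (h : Two M N) (K : Subgroup G') (hK : K ≠ ⊤) :
    ∃ g, (K ≤ cj(g, M.map f) ∧ f.ker ≤ M) ∨ (K ≤ cj(g, N.map f) ∧ f.ker ≤ N) := by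
  obtain ⟨g, e⟩ := h (K.comap f) fun e => hK (by
    rw [← map_comap_eq_self_of_surjective hf K, e, map_top_of_surjective f hf])
  have key : ∀ X : Subgroup G, K.comap f ≤ cj(g, X) → K ≤ cj(f g, X.map f) ∧ f.ker ≤ X :=
    fun X e => ⟨fun k hk => by
      obtain ⟨k, rfl⟩ := hf k
      exact mem_map_conj.2 ⟨_, mem_map_conj.1 (e hk), by simp⟩, fun q hq => by
      simpa [mul_assoc] using
        mem_map_conj.1 (e (ker_le_comap f K (f.normal_ker.conj_mem q hq g)))⟩
  exact ⟨f g, e.imp (key M) (key N)⟩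

theorem two_solvable (G : Type u) [Group G] [Finite G] :
    ∀ M N : Subgroup G, M ≠ ⊤ → N ≠ ⊤ → Two M N → Group.IsSolvable G := by
  refine card_induction (P := fun G _ _ => ∀ M N : Subgroup G, M ≠ ⊤ → N ≠ ⊤ → Two M N →
    Group.IsSolvable G) (fun G _ _ ih M N hM hN h => ?_) G
  by_contra ns
  refine absurd (h.index_lt hM ?a) (h.symm.index_lt hN ?a).not_gt
  intro p hp Q hQ e
  by_contra Q0
  haveI := Fact.mk hp
  haveI : Q.Normal := normalizer_eq_top_iff.1 e
  haveI : Group.IsSolvable Q := haveI := hQ.isNilpotent; inferInstance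
  have sj := QuotientGroup.mk'_surjective Q
  suffices Group.IsSolvable (G ⧸ Q) from ns (Group.isSolvable_of_ker_le_range Q.subtype
    (QuotientGroup.mk' Q) (by rw [QuotientGroup.ker_mk', range_subtype]))
  have lt : Nat.card (G ⧸ Q) < Nat.card G := by
    rw [← Q.card_mul_index]
    exact lt_mul_left index_ne_zero_of_finite.bot_lt ((one_lt_card_iff_ne_bot Q).2 Q0)
  have h' := h.map sj
  have ne : ∀ X : Subgroup G, X ≠ ⊤ → (QuotientGroup.mk' Q).ker ≤ X →
      X.map (QuotientGroup.mk' Q) ≠ ⊤ := fun X h1 h2 e =>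
    h1 (by rw [← comap_map_eq_self h2, e, comap_top])
  by_cases e1 : (QuotientGroup.mk' Q).ker ≤ M <;> by_cases e2 : (QuotientGroup.mk' Q).ker ≤ N
  · exact ih _ lt _ _ (ne M hM e1) (ne N hN e2) fun K hK =>
      (h' K hK).imp fun _ => Or.imp And.left And.left
  · exact ih _ lt _ _ (ne M hM e1) (ne M hM e1) fun K hK =>
      (h' K hK).imp fun _ e => .inl (e.resolve_right fun e => e2 e.2).1
  · exact ih _ lt _ _ (ne N hN e2) (ne N hN e2) fun K hK =>
      (h' K hK).imp fun _ e => .inl (e.resolve_left fun e => e1 e.2).1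
  · refine Group.isSolvable_of_top_eq_bot _ (by_contra fun n => ?_)
    obtain ⟨g, e | e⟩ := h' ⊥ (Ne.symm n)
    exacts [e1 e.2, e2 e.2]

theorem Two.card_le (h : Two M N) (hM : M ≠ ⊤) (hN : N ≠ ⊤) (hs : Group.IsSolvable G) :
    (Nat.card G).primeFactors.card ≤ 2 := by
  refine le_trans (Finset.card_le_card (t := {M.index.minFac, N.index.minFac}) fun p hp => ?_)
    Finset.card_le_two
  have pp := Nat.prime_of_mem_primeFactors hp
  haveI := Fact.mk pp
  obtain ⟨K, h1, k, h2⟩ := Two.exists_hall_compl p G hs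
  have key : ∀ (g : G) (X : Subgroup G), X ≠ ⊤ → K ≤ cj(g, X) → p = X.index.minFac := fun g X hX e => by
    have := index_dvd_of_le e
    rw [index_map_of_bijective (MulAut.conj g).bijective, h2] at this
    have h3 := Nat.minFac_prime (mt index_eq_one.1 hX)
    exact ((Nat.prime_dvd_prime_iff_eq h3 pp).1
      (h3.dvd_of_dvd_pow ((Nat.minFac_dvd _).trans this))).symm
  obtain ⟨g, e | e⟩ := h K fun e => h1 (by rw [e, card_top]; exact Nat.dvd_of_mem_primeFactors hp)
  · exact Finset.mem_insert.2 (.inl (key g M hM e))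
  · exact Finset.mem_insert.2 (.inr (Finset.mem_singleton.2 (key g N hN e)))

theorem Two.not_pgroup (h : Two M N) (hM : IsCoatom M) (hN : IsCoatom N) (hne : M ≠ N) :
    ¬ IsPGroup p G := by
  intro hG
  haveI := hG.isNilpotent
  haveI nM : M.Normal := NormalizerCondition.normal_of_coatom M Group.normalizerCondition_of_isNilpotent hM
  haveI nN : N.Normal := NormalizerCondition.normal_of_coatom N Group.normalizerCondition_of_isNilpotent hN
  obtain ⟨x, xM, xN⟩ := SetLike.not_le_iff_exists.1 fun e : M ≤ N =>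
    hne ((hM.le_iff_eq hN.1).1 e).symm
  obtain ⟨y, yN, yM⟩ := SetLike.not_le_iff_exists.1 fun e : N ≤ M => hne ((hN.le_iff_eq hM.1).1 e)
  by_cases e : zpowers (x * y) = ⊤
  · have key : ∀ X : Subgroup G, X ≠ ⊤ → ∀ a : ℕ, (x * y) ^ a ∈ X → p ∣ a := fun X hX a ha => by
      by_contra n
      obtain ⟨k, hk⟩ := IsPGroup.iff_orderOf.1 hG (x * y)
      refine hX (top_unique (e.ge.trans (zpowers_le.2 (zpowers_le.2 ha (mem_zpowers_pow_iff.2 ?_)))))
      rw [hk]
      exact (Nat.Coprime.pow_left k (hp.out.coprime_iff_not_dvd.2 n)).symm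
    obtain ⟨a, ha⟩ := (mem_powers_iff_mem_zpowers (x := x * y) (y := x)).2 (e ▸ mem_top x)
    obtain ⟨b, hb⟩ := (mem_powers_iff_mem_zpowers (x := x * y) (y := y)).2 (e ▸ mem_top y)
    have h1 := key M hM.1 a (by rwa [show (x * y) ^ a = x from ha])
    have h2 := key N hN.1 b (by rwa [show (x * y) ^ b = y from hb])
    have h3 : (x * y) ^ (a + b) = (x * y) ^ 1 := by
      rw [pow_add, show (x * y) ^ a = x from ha, show (x * y) ^ b = y from hb, pow_one]
    have h4 := key M hM.1 (orderOf (x * y)) (by rw [pow_orderOf_eq_one]; exact one_mem M)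
    have h5 := (pow_eq_pow_iff_modEq.1 h3).of_dvd h4
    exact hp.out.one_lt.ne' (Nat.dvd_one.1 ((h5.dvd_iff dvd_rfl).1 (dvd_add h1 h2)))
  obtain ⟨g, e | e⟩ := h _ e
  · rw [map_conj_eq_iff.2 (le_normalizer_of_normal (mem_top g))] at e
    exact yM ((mul_mem_cancel_left xM).1 (e (mem_zpowers _)))
  · rw [map_conj_eq_iff.2 (le_normalizer_of_normal (mem_top g))] at e
    exact xN ((mul_mem_cancel_right yN).1 (e (mem_zpowers _)))

theorem Two.final (h : Two M N) (hM : IsCoatom M) (hN : IsCoatom N) (hne : M ≠ N) :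
    Group.IsSolvable G ∧ (Nat.card G).primeFactors.card = 2 := by
  have hs := two_solvable G M N hM.1 hN.1 h
  refine ⟨hs, le_antisymm (h.card_le hM.1 hN.1 hs) (not_lt.1 fun lt => ?_)⟩
  obtain ⟨p, hp, e⟩ : ∃ p : ℕ, p.Prime ∧ (Nat.card G).primeFactors ⊆ {p} := by
    obtain ⟨p, e⟩ := Finset.card_le_one_iff_subset_singleton.1 (Nat.lt_succ_iff.1 lt)
    by_cases hp : p.Prime
    · exact ⟨p, hp, e⟩
    · exact ⟨2, Nat.prime_two, fun q hq =>
        absurd (Finset.mem_singleton.1 (e hq) ▸ Nat.prime_of_mem_primeFactors hq) hp⟩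
  haveI := Fact.mk hp
  refine h.not_pgroup (p := p) hM hN hne (IsPGroup.of_card (Nat.eq_prime_pow_of_unique_prime_dvd
    Nat.card_pos.ne' fun {d} hd e' => Finset.mem_singleton.1 (e ?_)))
  exact Nat.mem_primeFactors.2 ⟨hd, e', Nat.card_pos.ne'⟩

end Cfsg.Agent.Lib.TwoCl
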